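import Mathlib
import Cfsg.Prelude.Def_Transfer
import Cfsg.Agent.Lib.Char.Induce
import Cfsg.Agent.Lib.Char.Kernel

/-!
Characters of groups of class two that are faithful on the centre.
-/

set_option autoImplicit false

namespace CfsgLib.CharDeep

open Cfsg CfsgLib.Char Finset
open scoped ComplexConjugate commutatorElement

variable {P : Type*} [Group P]

theorem eq_zero_of_not_mem_center (hc : commutator P ≤ Subgroup.center P) {f : P → ℂ}
    (hf : IsClassFunction P f)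
    (h : ∀ z ∈ Subgroup.center P, z ≠ 1 → ∃ ω : ℂ, ω ≠ 1 ∧ ∀ x, f (z * x) = ω * f x)
    {x : P} (hx : x ∉ Subgroup.center P) : f x = 0 := by
  rw [Subgroup.mem_center_iff] at hx
  push Not at hx
  obtain ⟨y, hy⟩ := hx
  obtain ⟨ω, hω, h1⟩ := h ⁅y, x⁆ (hc (Subgroup.commutator_mem_commutator (Subgroup.mem_top y)
    (Subgroup.mem_top x))) (fun h => hy (commutatorElement_eq_one_iff_mul_comm.mp h))
  have h2 := h1 x
  rw [commutatorElement_def, inv_mul_cancel_right, hf] at h2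
  by_contra h0
  exact hω (mul_right_cancel₀ h0 (h2.symm.trans (one_mul _).symm))

theorem classInner_self_of_vanish [Fintype P] (Z : Subgroup P) {f : P → ℂ}
    (h0 : ∀ x, x ∉ Z → f x = 0) (h1 : ∀ z ∈ Z, ‖f z‖ = ‖f 1‖) :
    classInner f f = (Nat.card P : ℂ)⁻¹ * (Nat.card Z * (‖f 1‖ : ℂ) ^ 2) := by
  classical
  rw [classInner_def, ← sum_subset (subset_univ (univ.filter (· ∈ Z)))
    (fun x _ hx => by rw [h0 x (by simpa using hx), zero_mul]),
    sum_congr rfl (g := fun _ => (‖f 1‖ : ℂ) ^ 2) (fun z hz => by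
      rw [Complex.mul_conj', h1 z (mem_filter.mp hz).2]), sum_const, nsmul_eq_mul,
    Nat.card_eq_fintype_card (α := Z), Fintype.card_subtype]

theorem eq_bot_of_card_prime {Z K : Subgroup P} {p : ℕ} (hp : p.Prime) (hZ : Nat.card Z = p)
    (h : ¬ Z ≤ K) {z : P} (hz : z ∈ Z) (hzK : z ∈ K) : z = 1 := by
  have : Finite Z := Nat.finite_of_card_ne_zero (hZ ▸ hp.ne_zero)
  rcases (Nat.dvd_prime hp).mp (hZ ▸ Subgroup.card_dvd_of_le (inf_le_left : Z ⊓ K ≤ Z)) with h1 | h1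
  · rw [Subgroup.card_eq_one] at h1
    exact (Subgroup.mem_bot.mp (h1 ▸ (⟨hz, hzK⟩ : z ∈ Z ⊓ K)))
  · exact absurd (inf_eq_left.mp (Subgroup.eq_of_le_of_card_ge inf_le_left (hZ.trans h1.symm).le)) h

variable [Fintype P] {p : ℕ} (hp : p.Prime) (hP : IsExtraspecial p P)
include hp hP

theorem extraspecial_irr_vanish {χ : P → ℂ} (hχ : IsIrrCharacter P χ) (h1 : χ 1 ≠ 1) {x : P}
    (hx : x ∉ Subgroup.center P) : χ x = 0 := by
  have hc := isCharacter_of_isIrr hχ
  refine eq_zero_of_not_mem_center hP.1.2.2.le (isClassFunction_of_isIrr hχ) (fun z hz hz1 => ?_) hx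
  refine ⟨χ z / χ 1, fun h => hz1 ?_, char_mul_of_norm_eq hc (norm_irr_of_mem_center hχ hz)⟩
  refine eq_bot_of_card_prime hp hP.2 (K := charKer χ) (fun h => h1 ?_) hz ?_
  · exact (irr_one_eq_one_iff hχ).mpr (hP.1.2.2 ▸ h)
  · exact (mem_charKer hc).mpr ((div_eq_one_iff_eq (irr_one_ne_zero hχ)).mp h)

theorem extraspecial_irr_degree {n : ℕ} (hcard : Nat.card P = p ^ (2 * n + 1)) {χ : P → ℂ}
    (hχ : IsIrrCharacter P χ) (h1 : χ 1 ≠ 1) : χ 1 = (p : ℂ) ^ n := by
  have h2 := classInner_self_of_vanish _ (fun x => extraspecial_irr_vanish hp hP hχ h1 (x := x))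
    (fun z => norm_irr_of_mem_center hχ)
  obtain ⟨d, -, hd⟩ := exists_irr_one_eq_nat hχ
  have h0 : (p : ℂ) ≠ 0 := by exact_mod_cast hp.ne_zero
  rw [classInner_irr_self hχ, hcard, hP.2, hd] at h2
  simp only [Complex.norm_natCast, Complex.ofReal_natCast] at h2
  push_cast at h2
  field_simp at h2
  have h3 : d ^ 2 = (p ^ n) ^ 2 := by
    have : (d : ℂ) ^ 2 = (p ^ n) ^ 2 := by
      apply mul_left_cancel₀ h0
      rw [← h2]; ring
    exact_mod_cast this
  rw [hd, Nat.pow_left_injective two_ne_zero h3, Nat.cast_pow]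

end CfsgLib.CharDeep
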